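import Cfsg.Agent.H776.Co.Lin
import Mathlib.GroupTheory.Sylow
import Mathlib.LinearAlgebra.Matrix.GeneralLinearGroup.Card
import Mathlib.Tactic.LinearCombination

/-!
# `Lin.reg` of the project `S5227` (helper395, task 3754)

The centralizer of a regular element `x` of `T` acts on `V / im (x - 1)`, of dimension 2, the kernel is a 3-group.
-/

set_option autoImplicit false

namespace Cfsg.Agent.H395.CoReg

open Cfsg.Agent.H776.Co.Lin Subgroup

/-! ### the number of Sylow 3-subgroups of `GL_2(3)` -/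

abbrev M2 := Matrix (Fin 2) (Fin 2) (ZMod 3)
abbrev GG := GL (Fin 2) (ZMod 3)

theorem eight : (Finset.univ.filter fun M : M2 => M * M * M = 1 ∧ M ≠ 1).card = 8 := by decide +kernel

theorem card_gg : Nat.card GG = 48 := by
  have : Fact (Nat.Prime 3) := ⟨Nat.prime_three⟩
  rw [Matrix.card_GL_field, Fin.prod_univ_two, ZMod.card]
  norm_num

theorem card_sylow_gg : Nat.card (Sylow 3 GG) ≤ 4 := by
  classical
  have : Fact (Nat.Prime 3) := ⟨Nat.prime_three⟩
  have hfin : Finite GG := Nat.finite_of_card_ne_zero (by rw [card_gg]; norm_num)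
  have hP : ∀ P : Sylow 3 GG, Nat.card P = 3 := by
    intro P
    obtain ⟨k, hk⟩ := IsPGroup.iff_card.1 P.isPGroup'
    have h1 : 3 ∣ Nat.card P := P.dvd_card_of_dvd_card (by rw [card_gg]; norm_num)
    have h2 : k < 2 := by
      by_contra hlt
      have h3 : 3 ^ 2 ∣ Nat.card GG := by
        refine (pow_dvd_pow 3 (show 2 ≤ k by omega)).trans ?_
        rw [← hk]
        exact card_subgroup_dvd_card _
      rw [card_gg] at h3
      norm_num at h3
    have h3 : k ≠ 0 := by
      rintro rfl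
      rw [hk] at h1
      norm_num at h1
    rw [hk, show k = 1 by omega, pow_one]
  have hg : ∀ P : Sylow 3 GG, ∃ g : GG, g ∈ P ∧ orderOf g = 3 := by
    intro P
    obtain ⟨⟨g, hg⟩, ho⟩ := exists_prime_orderOf_dvd_card' (G := P) 3 (by rw [hP P])
    exact ⟨g, hg, (Subgroup.orderOf_mk g hg).symm.trans ho⟩
  choose g hgP ho using hg
  have hz : ∀ P : Sylow 3 GG, zpowers (g P) = (P : Subgroup GG) := by
    intro P
    apply Subgroup.eq_of_le_of_card_ge (zpowers_le.2 (hgP P))
    rw [Nat.card_zpowers, ho]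
    exact (hP P).le
  have hmem : ∀ h : GG, orderOf h = 3 → (h : M2) ∈ Finset.univ.filter fun M : M2 => M * M * M = 1 ∧ M ≠ 1 := by
    intro h hh
    rw [Finset.mem_filter]
    refine ⟨Finset.mem_univ _, ?_, ?_⟩
    · have h1 : h ^ 3 = 1 := orderOf_dvd_iff_pow_eq_one.1 hh.dvd
      have h2 := congrArg (fun x : GG => (x : M2)) h1
      simpa [pow_succ] using h2
    · intro h1
      have h2 : h = 1 := Units.ext h1
      rw [h2, orderOf_one] at hh
      omega
  let f : Sylow 3 GG × Bool → {M : M2 // M ∈ Finset.univ.filter fun M : M2 => M * M * M = 1 ∧ M ≠ 1} := fun p =>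
    if p.2 then ⟨(g p.1 : M2), hmem _ (ho _)⟩ else ⟨((g p.1)⁻¹ : GG), hmem _ (by rw [orderOf_inv]; exact ho _)⟩
  have hf : Function.Injective f := by
    have key : ∀ P : Sylow 3 GG, g P ≠ (g P)⁻¹ := by
      intro P h
      have h1 : (g P) ^ 2 = 1 := by
        rw [pow_two]
        nth_rewrite 2 [h]
        exact mul_inv_cancel _
      have h2 := orderOf_dvd_of_pow_eq_one h1
      rw [ho] at h2
      norm_num at h2
    rintro ⟨P, i⟩ ⟨Q, j⟩ h
    have h1 := congrArg Subtype.val h
    have hval : ∀ (P : Sylow 3 GG) (i : Bool), (f (P, i)).1 = ((if i then g P else (g P)⁻¹ : GG) : M2) := by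
      intro P i
      cases i <;> simp [f]
    rw [hval, hval] at h1
    have h2 : (if i then g P else (g P)⁻¹ : GG) = (if j then g Q else (g Q)⁻¹ : GG) := Units.ext h1
    have hPQ : P = Q := by
      apply Sylow.ext
      rw [← hz P, ← hz Q]
      have h3 : ∀ (P : Sylow 3 GG) (i : Bool), zpowers (if i then g P else (g P)⁻¹ : GG) = zpowers (g P) := by
        intro P i
        cases i <;> simp
      rw [← h3 P i, ← h3 Q j, h2]
    subst hPQ
    have hij : i = j := by
      cases i <;> cases j <;> simp at h2 ⊢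
      · exact key P h2.symm
      · exact key P h2
    rw [hij]
  have h1 := Nat.card_le_card_of_injective f hf
  have h2 : Nat.card {M : M2 // M ∈ Finset.univ.filter fun M : M2 => M * M * M = 1 ∧ M ≠ 1} = 8 := by
    rw [Nat.card_eq_fintype_card, Fintype.card_coe, eight]
  rw [h2, Nat.card_prod, Nat.card_eq_fintype_card (α := Bool), Fintype.card_bool] at h1
  omega

/-! ### the action on `V / im (x - 1)` -/

def ph (a b c : ZMod 3) (v : V) : ZMod 3 := a * v 2 + b * v 3 - (a * b + c) * v 4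
def ps (v : V) : ZMod 3 := v 5

theorem three : (3 : ZMod 3) = 0 := by decide

theorem ph_add (a b c : ZMod 3) (v w : V) : ph a b c (v + w) = ph a b c v + ph a b c w := by
  simp only [ph, Pi.add_apply]; ring

theorem ph_smul (a b c r : ZMod 3) (v : V) : ph a b c (r • v) = r * ph a b c v := by
  simp only [ph, Pi.smul_apply, smul_eq_mul]; ring

theorem gen_ph {R : Type*} [CommRing R] (h3 : (3 : R) = 0) {a b c v2 v3 v4 v5 : R} (hb : b ^ 2 = 1) :
    a * (v2 + 2 * b * v4 + b ^ 2 * v5) + b * (v3 + a * v4 + c * v5) - (a * b + c) * (v4 + b * v5) =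
      a * v2 + b * v3 - (a * b + c) * v4 := by
  linear_combination (a * b * v4) * h3

theorem ph_tf (a b c : ZMod 3) (hb : b ^ 2 = 1) (v : V) : ph a b c (tf a b c v) = ph a b c v :=
  gen_ph three hb

theorem ps_tf (a b c : ZMod 3) (v : V) : ps (tf a b c v) = ps v := by
  simp [ps, tf]

theorem gen {R : Type*} [CommRing R] (h3 : (3 : R) = 0) {a b c v0 v1 v2 v3 v4 w1 w2 w4 w5 : R} (ha : a ^ 2 = 1)
    (hb : b ^ 2 = 1) (h1 : a * v2 + b * v3 - (a * b + c) * v4 = 0) (e5 : w5 = b * v4) (e4 : w4 = a * (v3 - c * w5))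
    (e2 : w2 = a * (v1 - c * w4 - a * b * w4 - b * c * w5))
    (e1 : w1 = 2 * a * (v0 - a ^ 2 * w2 - 2 * a * c * w4 - c ^ 2 * w5)) :
    0 + 2 * a * w1 + 2 * c * 0 + a ^ 2 * w2 + 2 * a * c * w4 + c ^ 2 * w5 = 0 + v0 ∧
    w1 + a * w2 + c * w4 + b * (0 + a * w4 + c * w5) = w1 + v1 ∧
    w2 + 2 * b * w4 + b ^ 2 * w5 = w2 + v2 ∧
    0 + a * w4 + c * w5 = 0 + v3 ∧
    w4 + b * w5 = w4 + v4 := by
  refine ⟨?_, ?_, ?_, ?_, ?_⟩
  · linear_combination (2 * a) * e1 + (4 * (v0 - a ^ 2 * w2 - 2 * a * c * w4 - c ^ 2 * w5)) * ha +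
      (v0 - a ^ 2 * w2 - 2 * a * c * w4 - c ^ 2 * w5) * h3
  · linear_combination a * e2 + (v1 - c * w4 - a * b * w4 - b * c * w5) * ha
  · linear_combination (2 * b) * e4 + (b ^ 2 - 2 * a * b * c) * e5 + (b * v4 - 2 * a * c * v4) * hb - a * h1 +
      (v2 - b * v4) * ha + (a * b * v3 - a * c * v4) * h3
  · linear_combination a * e4 + (v3 - c * w5) * ha
  · linear_combination b * e5 + v4 * hb

/-- the elements killed by the two functionals are in the image of `x - 1` -/
theorem exists_pre {a b c : ZMod 3} (ha : a ^ 2 = 1) (hb : b ^ 2 = 1) (v : V) (h1 : ph a b c v = 0) (h2 : ps v = 0) :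
    ∃ w : V, tf a b c w = w + v := by
  unfold ph at h1
  unfold ps at h2
  obtain ⟨w5, e5⟩ : ∃ w5, w5 = b * v 4 := ⟨_, rfl⟩
  obtain ⟨w4, e4⟩ : ∃ w4, w4 = a * (v 3 - c * w5) := ⟨_, rfl⟩
  obtain ⟨w2, e2⟩ : ∃ w2, w2 = a * (v 1 - c * w4 - a * b * w4 - b * c * w5) := ⟨_, rfl⟩
  obtain ⟨w1, e1⟩ : ∃ w1, w1 = 2 * a * (v 0 - a ^ 2 * w2 - 2 * a * c * w4 - c ^ 2 * w5) := ⟨_, rfl⟩
  obtain ⟨g0, g1, g2, g3, g4⟩ := gen three ha hb h1 e5 e4 e2 e1
  refine ⟨![0, w1, w2, 0, w4, w5], ?_⟩
  funext i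
  fin_cases i
  · exact g0
  · exact g1
  · exact g2
  · exact g3
  · exact g4
  · show w5 = w5 + v 5
    rw [h2, add_zero]

/-! ### the homomorphism -/

section hom

variable {a b c : ZMod 3} {C : Subgroup L}

def u1 (a : ZMod 3) : V := ![0, 0, a, 0, 0, 0]
def u2 : V := ![0, 0, 0, 0, 0, 1]

theorem ph_u1 (ha : a ^ 2 = 1) : ph a b c (u1 a) = 1 := by
  simp [ph, u1, ← pow_two, ha]

theorem ps_u1 : ps (u1 a) = 0 := by simp [ps, u1]

theorem ph_u2 : ph a b c u2 = 0 := by simp [ph, u2]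

theorem ps_u2 : ps u2 = 1 := by simp [ps, u2]

theorem ps_add (v w : V) : ps (v + w) = ps v + ps w := rfl

theorem ps_smul (r : ZMod 3) (v : V) : ps (r • v) = r * ps v := rfl

/-- the elements commuting with `x` preserve the common kernel of the functionals -/
theorem ker_map (ha : a ^ 2 = 1) (hb : b ^ 2 = 1) {g : L} (hg : g * tl a b c = tl a b c * g) {v : V}
    (h1 : ph a b c v = 0) (h2 : ps v = 0) : ph a b c (g v) = 0 ∧ ps (g v) = 0 := by
  obtain ⟨w, hw⟩ := exists_pre ha hb v h1 h2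
  have h3 : g (tf a b c w) = tf a b c (g w) := LinearEquiv.congr_fun hg w
  have h4 : g v + g w = tf a b c (g w) := by
    rw [← h3, hw, map_add, add_comm]
  constructor
  · have h5 := congrArg (ph a b c) h4
    rw [ph_add, ph_tf a b c hb] at h5
    exact add_eq_right.1 h5
  · have h5 := congrArg ps h4
    rw [ps_add, ps_tf] at h5
    exact add_eq_right.1 h5

/-- the matrix of `g` on the quotient -/
def mat (a b c : ZMod 3) (g : L) : M2 :=
  !![ph a b c (g (u1 a)), ph a b c (g u2); ps (g (u1 a)), ps (g u2)]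

theorem mat_spec (ha : a ^ 2 = 1) (hb : b ^ 2 = 1) {g : L} (hg : g * tl a b c = tl a b c * g) (v : V) :
    ph a b c (g v) = ph a b c (g (u1 a)) * ph a b c v + ph a b c (g u2) * ps v ∧
    ps (g v) = ps (g (u1 a)) * ph a b c v + ps (g u2) * ps v := by
  have h1 : ph a b c (v + ((-ph a b c v) • u1 a + (-ps v) • u2)) = 0 := by
    rw [ph_add, ph_add, ph_smul, ph_smul, ph_u1 ha, ph_u2]; ring
  have h2 : ps (v + ((-ph a b c v) • u1 a + (-ps v) • u2)) = 0 := by
    rw [ps_add, ps_add, ps_smul, ps_smul, ps_u1, ps_u2]; ring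
  obtain ⟨h3, h4⟩ := ker_map ha hb hg h1 h2
  rw [map_add, map_add, map_smul, map_smul, ph_add, ph_add, ph_smul, ph_smul] at h3
  rw [map_add, map_add, map_smul, map_smul, ps_add, ps_add, ps_smul, ps_smul] at h4
  constructor
  · linear_combination h3
  · linear_combination h4

theorem mat_mul (ha : a ^ 2 = 1) (hb : b ^ 2 = 1) {g h : L} (hg : g * tl a b c = tl a b c * g) :
    mat a b c (g * h) = mat a b c g * mat a b c h := by
  have h1 := mat_spec ha hb hg (h (u1 a))
  have h2 := mat_spec ha hb hg (h u2)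
  ext i j
  fin_cases i <;> fin_cases j <;> simp [mat, Matrix.mul_apply, Fin.sum_univ_two]
  · exact h1.1
  · exact h2.1
  · exact h1.2
  · exact h2.2

theorem mat_one (ha : a ^ 2 = 1) : mat a b c 1 = 1 := by
  ext i j
  fin_cases i <;> fin_cases j <;> simp [mat, ph_u1 ha, ph_u2, ps_u1, ps_u2]

/-- the homomorphism into `GL_2(3)` -/
def rho (ha : a ^ 2 = 1) (hb : b ^ 2 = 1) (hC : ∀ g ∈ C, g * tl a b c = tl a b c * g) : C →* GG where
  toFun g := ⟨mat a b c g, mat a b c (g⁻¹ : C), by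
    rw [← mat_mul ha hb (hC _ g.2), ← Subgroup.coe_mul, mul_inv_cancel]; exact mat_one ha, by
    rw [← mat_mul ha hb (hC _ (g⁻¹).2), ← Subgroup.coe_mul, inv_mul_cancel]; exact mat_one ha⟩
  map_one' := Units.ext (mat_one ha)
  map_mul' g h := Units.ext (mat_mul ha hb (hC _ g.2))

theorem tl_cube_v (a b c : ZMod 3) (v : V) : tf a b c (tf a b c (tf a b c v)) = v := by
  have h3 := three
  rw [tf_tf, tf_tf]
  have : tf (a + a + a) (b + b + b) (c + c + a * b + c + (a + a) * b) v = tf 0 0 0 v := by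
    congr 1
    · linear_combination a * h3
    · linear_combination b * h3
    · linear_combination (c + a * b) * h3
  rw [this, tf_zero]

/-- the kernel consists of elements of order 3 -/
theorem cube_of_mat (ha : a ^ 2 = 1) (hb : b ^ 2 = 1) {g : L} (hg : g * tl a b c = tl a b c * g)
    (h : mat a b c g = 1) : g ^ 3 = 1 := by
  have e11 : ph a b c (g (u1 a)) = 1 := by simpa [mat] using congrFun (congrFun h 0) 0
  have e12 : ph a b c (g u2) = 0 := by simpa [mat] using congrFun (congrFun h 0) 1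
  have e21 : ps (g (u1 a)) = 0 := by simpa [mat] using congrFun (congrFun h 1) 0
  have e22 : ps (g u2) = 1 := by simpa [mat] using congrFun (congrFun h 1) 1
  have hc : ∀ v, g (tf a b c v) = tf a b c (g v) := fun v => LinearEquiv.congr_fun hg v
  -- `g v = v + (x - 1) w`
  have step : ∀ v : V, ∃ w : V, g v = v + (tf a b c w - w) := by
    intro v
    obtain ⟨h1, h2⟩ := mat_spec ha hb hg v
    rw [e11, e12, one_mul, zero_mul, add_zero] at h1
    rw [e21, e22, zero_mul, one_mul, zero_add] at h2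
    obtain ⟨w, hw⟩ := exists_pre ha hb (g v + (-1 : ZMod 3) • v)
      (by rw [ph_add, ph_smul, h1]; ring) (by rw [ps_add, ps_smul, h2]; ring)
    refine ⟨w, ?_⟩
    rw [hw, neg_smul, one_smul]
    abel
  have hlin : ∀ v w : V, tf a b c (v - w) = tf a b c v - tf a b c w := fun v w => map_sub (tl a b c) v w
  have hlin' : ∀ v w : V, tf a b c (v + w) = tf a b c v + tf a b c w := fun v w => map_add (tl a b c) v w
  have h3v : ∀ v : V, v + v + v = 0 := by
    intro v
    funext i
    have := three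
    show v i + v i + v i = 0
    linear_combination (v i) * this
  apply LinearEquiv.ext
  intro v
  obtain ⟨w1, hw1⟩ := step v
  obtain ⟨w2, hw2⟩ := step w1
  obtain ⟨w3, hw3⟩ := step w2
  have hx3 := tl_cube_v a b c w3
  set N : V → V := fun v => tf a b c v - v with hN
  -- `y = N w1`, `g y = y + N N w2`, `g (N N w2) = N N w2 + N N N w3`, `N N N = 0`
  have hgN : ∀ v, g (N v) = N (g v) := by
    intro v
    rw [hN]
    simp only [map_sub, hc]
  have hNadd : ∀ v w, N (v + w) = N v + N w := by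
    intro v w
    rw [hN]
    simp only [hlin']
    abel
  have hN3 : ∀ v, N (N (N v)) = 0 := by
    intro v
    rw [hN]
    simp only [hlin]
    rw [tl_cube_v]
    have h5 := h3v (tf a b c (tf a b c v))
    have h6 := h3v (tf a b c v)
    have h7 : v - tf a b c (tf a b c v) - (tf a b c (tf a b c v) - tf a b c v) - (tf a b c (tf a b c v) - tf a b c v - (tf a b c v - v)) =
      -(tf a b c (tf a b c v) + tf a b c (tf a b c v) + tf a b c (tf a b c v)) + (tf a b c v + tf a b c v + tf a b c v) := by abel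
    rw [h7, h5, h6, neg_zero, add_zero]
  have g1 : g v = v + N w1 := hw1
  have g2 : g (N w1) = N w1 + N (N w2) := by rw [hgN, hw2, hNadd]
  have g3 : g (N (N w2)) = N (N w2) := by
    rw [hgN, hgN, hw3, hNadd, hNadd]
    show N (N w2) + N (N (N w3)) = N (N w2)
    rw [hN3, add_zero]
  show (g ^ 3) v = v
  rw [pow_succ, pow_two]
  show g (g (g v)) = v
  rw [g1, map_add, g1, g2, map_add, map_add, g1, g2, map_add, g2, g3]
  have h5 := h3v (N w1)
  have h6 := h3v (N (N w2))
  calc v + N w1 + (N w1 + N (N w2)) + (N w1 + N (N w2) + N (N w2)) =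
      v + (N w1 + N w1 + N w1) + (N (N w2) + N (N w2) + N (N w2)) := by abel
    _ = v := by rw [h5, h6, add_zero, add_zero]

end hom

theorem sq_eq_one {a : ZMod 3} (h : a ≠ 0) : a ^ 2 = 1 := by
  revert h; revert a; decide

/-- **`Lin.reg`** -/
theorem reg (x : L) (hx : x ∈ T) (h1 : x ∉ U1) (h2 : x ∉ U2) (C : Subgroup L) (hC : ∀ g ∈ C, g * x = x * g)
    (_h3 : 3 ∣ Nat.card C) : Nat.card (Sylow 3 C) = 1 ∨ Nat.card (Sylow 3 C) = 4 := by
  have : Fact (Nat.Prime 3) := ⟨Nat.prime_three⟩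
  obtain ⟨a, b, c, rfl⟩ := hx
  have ha0 : a ≠ 0 := by
    rintro rfl
    exact h1 ⟨b, c, rfl⟩
  have hb0 : b ≠ 0 := by
    rintro rfl
    exact h2 ⟨a, c, rfl⟩
  have ha := sq_eq_one ha0
  have hb := sq_eq_one hb0
  have hfin : Finite GG := Nat.finite_of_card_ne_zero (by rw [card_gg]; norm_num)
  have hfinL : Finite L := Finite.of_injective (fun g : L => (g : V → V)) DFunLike.coe_injective
  have hker : IsPGroup 3 (rho (C := C) ha hb hC).ker := by
    intro g
    refine ⟨1, ?_⟩
    have h3 : mat a b c ((g : C) : L) = 1 := congrArg (fun x : GG => (x : M2)) g.2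
    have h4 := cube_of_mat ha hb (hC _ (g : C).2) h3
    apply Subtype.ext
    apply Subtype.ext
    rw [pow_one]
    exact h4
  have hex : ∀ P : Sylow 3 C, ∃ Q : Sylow 3 GG, Q.comap (rho (C := C) ha hb hC) = P := fun P =>
    P.exists_comap_eq_of_ker_isPGroup hker
  choose q hq using hex
  have hinj : Function.Injective q := by
    intro P P' h
    apply Sylow.ext
    rw [← hq P, ← hq P', h]
  have h4 := (Nat.card_le_card_of_injective q hinj).trans card_sylow_gg
  have h5 := card_sylow_modEq_one 3 C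
  have h6 : Nat.card (Sylow 3 C) ≠ 0 := Nat.card_pos.ne'
  unfold Nat.ModEq at h5
  omega

end Cfsg.Agent.H395.CoReg
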