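import Cfsg.Agent.H395.SixSolv

/-!
# The alternating groups
-/

set_option autoImplicit false

namespace Cfsg.Agent.H395.Six.Alt

open Subgroup Equiv

theorem F5 : ∀ p : Perm (Fin 5), Perm.sign p = 1 → p * p * p * (p * p * p) = 1 → p * p = 1 ∨ p * p * p = 1 := by
  decide +kernel

theorem F6 : ∀ p : Perm (Fin 6), Perm.sign p = 1 → p * p * p * (p * p * p) = 1 → p * p = 1 ∨ p * p * p = 1 := by
  decide +kernel

theorem five (S : SHyp (alternatingGroup (Fin 5))) : False := by
  obtain ⟨t, ht⟩ := S.exists_six
  have h6 : t * t * t * (t * t * t) = 1 := by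
    have h : t * t * t * (t * t * t) = t ^ 6 := by
      rw [show t * t * t = t ^ 3 by rw [pow_succ, pow_two], ← pow_add]
    rw [h]
    exact orderOf_dvd_iff_pow_eq_one.1 (by rw [ht])
  rcases F5 t (Perm.mem_alternatingGroup.1 t.2) (congrArg Subtype.val h6) with h | h
  · have h2 : t ^ 2 = 1 := by rw [pow_two]; exact Subtype.ext h
    have := orderOf_dvd_of_pow_eq_one h2
    rw [ht] at this
    omega
  · have h2 : t ^ 3 = 1 := by rw [pow_succ, pow_two]; exact Subtype.ext h
    have := orderOf_dvd_of_pow_eq_one h2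
    rw [ht] at this
    omega

theorem six (S : SHyp (alternatingGroup (Fin 6))) : False := by
  obtain ⟨t, ht⟩ := S.exists_six
  have h6 : t * t * t * (t * t * t) = 1 := by
    have h : t * t * t * (t * t * t) = t ^ 6 := by
      rw [show t * t * t = t ^ 3 by rw [pow_succ, pow_two], ← pow_add]
    rw [h]
    exact orderOf_dvd_iff_pow_eq_one.1 (by rw [ht])
  rcases F6 t (Perm.mem_alternatingGroup.1 t.2) (congrArg Subtype.val h6) with h | h
  · have h2 : t ^ 2 = 1 := by rw [pow_two]; exact Subtype.ext h
    have := orderOf_dvd_of_pow_eq_one h2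
    rw [ht] at this
    omega
  · have h2 : t ^ 3 = 1 := by rw [pow_succ, pow_two]; exact Subtype.ext h
    have := orderOf_dvd_of_pow_eq_one h2
    rw [ht] at this
    omega

def el {n : ℕ} (p : Perm (Fin n)) (h : Perm.sign p = 1) : alternatingGroup (Fin n) := ⟨p, Perm.mem_alternatingGroup.2 h⟩

theorem seven (S : SHyp (alternatingGroup (Fin 7))) : False := by
  have hcard : Nat.card (alternatingGroup (Fin 7)) = 2520 := by
    have h := two_mul_nat_card_alternatingGroup (α := Fin 7)
    rw [Nat.card_perm, Nat.card_eq_fintype_card (α := Fin 7), Fintype.card_fin,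
      show Nat.factorial 7 = 5040 from rfl] at h
    omega
  refine S.not_tp (n := 3) (by decide) (by rw [hcard]; norm_num) (by rw [hcard]; norm_num)
    (i := el (swap 3 4 * swap 5 6) (by decide)) (Subtype.ext (by decide)) (fun h => ?_) ?_
  · have := congrArg Subtype.val h
    revert this
    decide
  · refine ⟨el (swap 0 1 * swap 3 4) (by decide), el (swap 1 2 * swap 3 4) (by decide), Subtype.ext (by decide),
      Subtype.ext (by decide), Subtype.ext (by decide), Subtype.ext (by decide), fun h => ?_, Subtype.ext (by decide)⟩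
    have := congrArg Subtype.val h
    revert this
    decide

theorem eight (S : SHyp (alternatingGroup (Fin 8))) : False := by
  obtain ⟨g, hg⟩ := S.conj_invol (i := el (swap 0 1 * swap 2 3) (by decide))
    (j := el (swap 0 1 * swap 2 3 * swap 4 5 * swap 6 7) (by decide)) (Subtype.ext (by decide))
    (fun h => by
      have := congrArg Subtype.val h
      revert this
      decide) (Subtype.ext (by decide))
    (fun h => by
      have := congrArg Subtype.val h
      revert this
      decide)
  have h1 : ∀ x : Fin 8, (swap 0 1 * swap 2 3 * swap 4 5 * swap 6 7 : Perm (Fin 8)) x ≠ x := by decide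
  apply h1 ((g : Perm (Fin 8)) 7)
  have h2 := congrArg (fun p : alternatingGroup (Fin 8) => (p : Perm (Fin 8)) ((g : Perm (Fin 8)) 7)) hg
  have h3 : ((g : Perm (Fin 8)) * (swap 0 1 * swap 2 3 : Perm (Fin 8)) * (g : Perm (Fin 8))⁻¹) ((g : Perm (Fin 8)) 7) =
    (swap 0 1 * swap 2 3 * swap 4 5 * swap 6 7 : Perm (Fin 8)) ((g : Perm (Fin 8)) 7) := h2
  rw [← h3, Perm.mul_apply, Perm.mul_apply, Perm.inv_def, Equiv.symm_apply_apply]
  congr 1

theorem main {n : ℕ} (hn : 5 ≤ n) (hn8 : n ≤ 8) (S : SHyp (alternatingGroup (Fin n))) : False := by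
  have : n = 5 ∨ n = 6 ∨ n = 7 ∨ n = 8 := by omega
  rcases this with rfl | rfl | rfl | rfl
  · exact five S
  · exact six S
  · exact seven S
  · exact eight S

end Cfsg.Agent.H395.Six.Alt
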