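import Cfsg.Agent.H395.SixSolv
import Cfsg.Agent.LieClassical.SUBasic
import Cfsg.Agent.ClassicalGeometry.UnitTransv

/-!
# The groups `PSL₃(2^f)` and `PSU₃(2^f)`
-/

set_option autoImplicit false

namespace Cfsg.Agent.H395.Six.Even

open Subgroup Matrix Cfsg

universe u

variable {F : Type} [Field F] [Fintype F]

theorem key {Γ : Type u} [Group Γ] [Finite Γ] (ρ : Γ →* Matrix (Fin 3) (Fin 3) F) (hρ : Function.Injective ρ)
    (hc : ∀ c ∈ center Γ, ∃ l : F, ρ c = l • (1 : Matrix (Fin 3) (Fin 3) F)) (h2 : (2 : F) = 0)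
    (S : SHyp (Γ ⧸ center Γ)) {N : Matrix (Fin 3) (Fin 3) F} (hNN : N * N = 0) (hN : N ≠ 0) (htr : N.trace = 0)
    {T : Γ} (hT : ρ T = 1 + N) :
    (∀ (a : F) (Ta : Γ), ρ Ta = 1 + a • N → a ≠ 0 → a = 1) ∧
      ∃ M : Γ, ρ M * N = N * ρ M ∧ (M : Γ ⧸ center Γ) ^ 3 = 1 ∧ (M : Γ ⧸ center Γ) ≠ 1 := by
  -- multiples
  have hmul : ∀ a b l : F, l • ((1 : Matrix (Fin 3) (Fin 3) F) + a • N) = 1 + b • N → l = 1 ∧ a = b := by
    intro a b l h
    have h1 : (l - 1) • (1 : Matrix (Fin 3) (Fin 3) F) = (b - l * a) • N := by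
      have : (l - 1) • (1 : Matrix (Fin 3) (Fin 3) F) - (b - l * a) • N = l • (1 + a • N) - (1 + b • N) := by
        rw [sub_smul, sub_smul, smul_add, smul_smul, one_smul]
        abel
      rw [h, sub_self] at this
      exact sub_eq_zero.1 this
    have h3 : ((l - 1) * (l - 1)) • (1 : Matrix (Fin 3) (Fin 3) F) = 0 := by
      have := congrArg₂ (· * ·) h1 h1
      simpa only [smul_mul_smul_comm, hNN, smul_zero, mul_one] using this
    have h4 : l = 1 := by
      have h5 := congrFun (congrFun h3 0) 0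
      rw [Matrix.smul_apply, Matrix.one_apply_eq, Matrix.zero_apply, smul_eq_mul, mul_one, mul_self_eq_zero] at h5
      exact sub_eq_zero.1 h5
    refine ⟨h4, ?_⟩
    rw [h4, sub_self, zero_smul, one_mul] at h1
    rcases smul_eq_zero.1 h1.symm with h5 | h5
    · exact (sub_eq_zero.1 h5).symm
    · exact absurd h5 hN
  have hTT : ∀ (a : F) (Ta : Γ), ρ Ta = 1 + a • N → Ta * Ta = 1 := by
    intro a Ta h
    apply hρ
    rw [map_mul, map_one, h, mul_add, mul_one, add_mul, one_mul, smul_mul_smul_comm, hNN, smul_zero, add_zero,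
      add_assoc, ← two_smul F (a • N), h2, zero_smul, add_zero]
  have hT' : ρ T = 1 + (1 : F) • N := by rw [one_smul, hT]
  have hne : ∀ (a : F) (Ta : Γ), ρ Ta = 1 + a • N → a ≠ 0 → (Ta : Γ ⧸ center Γ) ≠ 1 := by
    intro a Ta h ha h1
    rw [QuotientGroup.eq_one_iff] at h1
    obtain ⟨l, hl⟩ := hc _ h1
    apply ha
    rw [h] at hl
    refine ((hmul 0 a l ?_).2).symm
    rw [zero_smul, add_zero, ← hl]
  have hz : (T : Γ ⧸ center Γ) * T = 1 := by rw [← QuotientGroup.mk_mul, hTT 1 T hT', QuotientGroup.mk_one]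
  have hz1 := hne 1 T hT' one_ne_zero
  obtain ⟨y, H⟩ := S.exists_of_invol hz hz1
  obtain ⟨M, rfl⟩ := QuotientGroup.mk_surjective y
  -- `M` commutes with `T`
  have hMT : M * T = T * M := by
    have h1 := H.xz
    rw [← QuotientGroup.mk_mul, ← QuotientGroup.mk_mul] at h1
    obtain ⟨c, hcc, hc'⟩ : ∃ c ∈ center Γ, M * T * c = T * M := by
      refine ⟨(M * T)⁻¹ * (T * M), ?_, by rw [mul_inv_cancel_left]⟩
      exact QuotientGroup.eq.1 h1
    obtain ⟨l, hl⟩ := hc _ hcc
    have h3 : T * c = M⁻¹ * (T * M) := by rw [← hc', mul_assoc, inv_mul_cancel_left]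
    have h4 := congrArg Matrix.trace (congrArg ρ h3)
    rw [map_mul, map_mul, map_mul, hl, Matrix.mul_smul, mul_one, trace_smul, ← mul_assoc, trace_mul_comm,
      ← mul_assoc, ← map_mul, mul_inv_cancel, map_one, one_mul, hT, trace_add, htr, add_zero, trace_one,
      Fintype.card_fin] at h4
    have h5 : ((3 : ℕ) : F) = 1 := by
      have : ((3 : ℕ) : F) = 2 + 1 := by norm_num
      rw [this, h2, zero_add]
    rw [h5, smul_eq_mul, mul_one] at h4
    have h6 : c = 1 := hρ (by rw [hl, h4, one_smul, map_one])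
    rw [h6, mul_one] at hc'
    exact hc'
  have hMN : ρ M * N = N * ρ M := by
    have h1 := congrArg ρ hMT
    rw [map_mul, map_mul, hT, mul_add, add_mul, mul_one, one_mul] at h1
    exact add_left_cancel h1
  refine ⟨?_, M, hMN, H.x_three, H.x1⟩
  intro a Ta ha ha0
  have hTaT : Ta * T = T * Ta := by
    apply hρ
    rw [map_mul, map_mul, ha, hT]
    simp only [mul_add, add_mul, mul_one, one_mul, Matrix.smul_mul, Matrix.mul_smul]
    abel
  have hTaM : Ta * M = M * Ta := by
    apply hρ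
    rw [map_mul, map_mul, ha, mul_add, add_mul, mul_one, one_mul, Matrix.smul_mul, Matrix.mul_smul, hMN]
  have hfin : Finite (Γ ⧸ center Γ) := inferInstance
  have h7 := S.invol_eq hz hz1 H.x_three H.x1 H.xz (w := (Ta : Γ ⧸ center Γ))
    (by rw [← QuotientGroup.mk_mul, ← QuotientGroup.mk_mul, hTaT])
    (by rw [← QuotientGroup.mk_mul, ← QuotientGroup.mk_mul, hTaM])
    (by rw [← QuotientGroup.mk_mul, hTT a Ta ha, QuotientGroup.mk_one]) (hne a Ta ha ha0)
  have h8 : T⁻¹ * Ta ∈ center Γ := QuotientGroup.eq.1 h7.symm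
  obtain ⟨l, hl⟩ := hc _ h8
  have h9 : ρ Ta = l • (1 + (1 : F) • N) := by
    rw [show Ta = T * (T⁻¹ * Ta) by rw [mul_inv_cancel_left], map_mul, hl, Matrix.mul_smul, mul_one, hT']
  rw [ha] at h9
  exact ((hmul 1 a l h9.symm).2).symm

/-! ### `PSL₃(2^f)` -/

/-- `1 + a E₀₂` -/
def tv (a : F) : SpecialLinearGroup (Fin 3) F :=
  ⟨!![1, 0, a; 0, 1, 0; 0, 0, 1], by simp [det_fin_three]⟩

theorem psl3 (h2 : (2 : F) = 0) (S : SHyp (ProjectiveSpecialLinearGroup (Fin 3) F)) : False := by
  classical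
  let N : Matrix (Fin 3) (Fin 3) F := !![0, 0, 1; 0, 0, 0; 0, 0, 0]
  have hfin : Finite (SpecialLinearGroup (Fin 3) F) := inferInstance
  have htv : ∀ a : F, slToMat 3 F (tv a) = 1 + a • N := by
    intro a
    show !![1, 0, a; 0, 1, 0; 0, 0, 1] = _
    ext i j
    fin_cases i <;> fin_cases j <;> simp [N]
  obtain ⟨h3, M, hM, hM3, hM1⟩ := key (slToMat 3 F) (fun A B h => Subtype.ext h) (fun c hc => by
      obtain ⟨r, -, hr⟩ := Matrix.SpecialLinearGroup.mem_center_iff.1 hc
      exact ⟨r, by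
        show (c : Matrix (Fin 3) (Fin 3) F) = _
        rw [← hr, scalar_apply, smul_one_eq_diagonal]⟩) h2 S (N := N) (by
      ext i j
      fin_cases i <;> fin_cases j <;> simp [N, Matrix.mul_apply, Fin.sum_univ_three]) (fun h => by
      have := congrFun (congrFun h 0) 2
      simp [N] at this) (by simp [N, Matrix.trace, Fin.sum_univ_three]) (T := tv 1) (by rw [htv, one_smul])
  have hF : ∀ a : F, a = 0 ∨ a = 1 := fun a => by
    by_cases ha : a = 0
    · exact Or.inl ha
    · exact Or.inr (h3 a (tv a) (htv a) ha)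
  -- `M` is upper unitriangular
  have hM' : (M : Matrix (Fin 3) (Fin 3) F) * N = N * M := hM
  have e1 : (M : Matrix (Fin 3) (Fin 3) F) 1 0 = 0 := by
    have := congrFun (congrFun hM' 1) 2
    simpa [N, Matrix.mul_apply, Fin.sum_univ_three] using this
  have e2 : (M : Matrix (Fin 3) (Fin 3) F) 2 0 = 0 := by
    have := congrFun (congrFun hM' 2) 2
    simpa [N, Matrix.mul_apply, Fin.sum_univ_three] using this
  have e3 : (M : Matrix (Fin 3) (Fin 3) F) 2 1 = 0 := by
    have := congrFun (congrFun hM' 0) 1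
    simpa [N, Matrix.mul_apply, Fin.sum_univ_three] using this.symm
  have hdet := M.2
  rw [det_fin_three, e1, e2, e3] at hdet
  simp only [mul_zero, zero_mul, sub_zero, add_zero] at hdet
  have d0 : (M : Matrix (Fin 3) (Fin 3) F) 0 0 = 1 := (hF _).resolve_left fun h => by
    rw [h] at hdet
    simp at hdet
  have d1 : (M : Matrix (Fin 3) (Fin 3) F) 1 1 = 1 := (hF _).resolve_left fun h => by
    rw [h] at hdet
    simp at hdet
  have d2 : (M : Matrix (Fin 3) (Fin 3) F) 2 2 = 1 := (hF _).resolve_left fun h => by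
    rw [h] at hdet
    simp at hdet
  have hM4 : M * M * (M * M) = 1 := by
    apply Subtype.ext
    show (M : Matrix (Fin 3) (Fin 3) F) * M * (M * M) = 1
    have h4 : (M : Matrix (Fin 3) (Fin 3) F) * M = !![1, 0, (M : Matrix (Fin 3) (Fin 3) F) 0 1 *
        (M : Matrix (Fin 3) (Fin 3) F) 1 2; 0, 1, 0; 0, 0, 1] := by
      ext i j
      fin_cases i <;> fin_cases j <;>
        simp [Matrix.mul_apply, Fin.sum_univ_three, e1, e2, e3, d0, d1, d2]
      all_goals
        try rw [← two_mul, h2, zero_mul]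
      linear_combination (M : Matrix (Fin 3) (Fin 3) F) 0 2 * h2
    rw [h4]
    ext i j
    fin_cases i <;> fin_cases j <;> simp [Matrix.mul_apply, Fin.sum_univ_three]
    rw [← two_mul, h2, zero_mul]
  have hM4' : (M : ProjectiveSpecialLinearGroup (Fin 3) F) ^ 4 = 1 := by
    have : M ^ 4 = 1 := by rw [← hM4, ← pow_two, ← pow_two, ← pow_mul]
    rw [← QuotientGroup.mk_pow, this, QuotientGroup.mk_one]
  apply hM1
  rw [pow_succ] at hM4'
  have hM3' : (M : ProjectiveSpecialLinearGroup (Fin 3) F) ^ 3 = 1 := hM3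
  rw [hM3', one_mul] at hM4'
  exact hM4'

/-! ### `PSU₃(2^f)` -/

open Cfsg.Agent.LieClassical.HermBasic Cfsg.Agent.LieClassical.SUBasic Cfsg.Agent.ClassicalGeometry.UnitTransv

variable {q : ℕ}

/-- the isotropic vector `(1, 1, 0)` -/
def uu : Fin 3 → F := ![1, 1, 0]

theorem psu3 (h2 : (2 : F) = 0) (hF : Fintype.card F = q ^ 2) (hq : 4 ≤ q) (S : SHyp (PSU 3 F q)) : False := by
  classical
  let N : Matrix (Fin 3) (Fin 3) F := !![1, 1, 0; 1, 1, 0; 0, 0, 0]
  have hfin : Finite (SU 3 F q) := inferInstance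
  have hq0 : q ≠ 0 := by omega
  have huu : hermForm 3 F q uu uu = 0 := by
    rw [hermForm_apply, Fin.sum_univ_three]
    simp [uu, hq0]
    rw [one_add_one_eq_two, h2]
  have hmat : ∀ (a : F) (ha : a + a ^ q = 0), ((SU 3 F q).subtype (utv hF uu a huu ha) : Matrix (Fin 3) (Fin 3) F) =
      1 + a • N := by
    intro a ha
    show unitaryTransvection 3 q uu a = _
    unfold unitaryTransvection
    congr 2
    ext i j
    fin_cases i <;> fin_cases j <;> simp [N, uu, hq0, vecMulVec_apply]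
  have h1q : (1 : F) + 1 ^ q = 0 := by rw [one_pow, one_add_one_eq_two, h2]
  obtain ⟨h3, -⟩ := key ((slToMat 3 F).comp (SU 3 F q).subtype) (fun A B h => Subtype.ext (Subtype.ext h))
    (fun c hc => by
      obtain ⟨r, h1, h2, rfl⟩ := (mem_center_SU_iff hF le_rfl c).1 hc
      exact ⟨r, by
        show (((suScalar q r h1 h2 : SU 3 F q) : SpecialLinearGroup (Fin 3) F) : Matrix (Fin 3) (Fin 3) F) = _
        rw [coe_suScalar, smul_one_eq_diagonal]⟩) h2 S (N := N) (by
      ext i j
      fin_cases i <;> fin_cases j <;> simp [N, Matrix.mul_apply, Fin.sum_univ_three] <;>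
        rw [one_add_one_eq_two, h2]) (fun h => by
      have := congrFun (congrFun h 0) 1
      simp [N] at this) (by
        simp [N, Matrix.trace, Fin.sum_univ_three]
        rw [one_add_one_eq_two, h2]) (T := utv hF uu 1 huu h1q) (by
        have := hmat 1 h1q
        rw [one_smul] at this
        exact this)
  -- an element of `F_q` different from 0 and 1
  obtain ⟨g, hg⟩ := IsCyclic.exists_generator (α := Fˣ)
  have ho : orderOf g = (q + 1) * (q - 1) := by
    rw [← card_units_eq hF, orderOf_eq_card_of_forall_mem_zpowers hg]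
  let a : F := ((g ^ (q + 1) : Fˣ) : F)
  have haq : a ^ q = a := by
    have h4 : (g ^ (q + 1)) ^ q = g ^ (q + 1) := by
      have h5 : (g ^ (q + 1)) ^ (q - 1) = 1 := by rw [← pow_mul, ← ho, pow_orderOf_eq_one]
      have h6 : (g ^ (q + 1)) ^ (q - 1 + 1) = g ^ (q + 1) := by rw [pow_succ, h5, one_mul]
      rwa [show q - 1 + 1 = q by omega] at h6
    have := congrArg Units.val h4
    rw [Units.val_pow_eq_pow_val] at this
    exact this
  have ha : a + a ^ q = 0 := by rw [haq, ← two_mul, h2, zero_mul]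
  have h4 := h3 a (utv hF uu a huu ha) (hmat a ha) (Units.ne_zero _)
  have h5 : g ^ (q + 1) = 1 := Units.ext h4
  have h6 := orderOf_dvd_of_pow_eq_one h5
  rw [ho] at h6
  have h7 := Nat.le_of_dvd (by omega) h6
  have h8 : q + 1 < (q + 1) * (q - 1) := by
    have : 3 ≤ q - 1 := by omega
    nlinarith
  omega

end Cfsg.Agent.H395.Six.Even
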