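import Cfsg.Agent.OddHalf.Known
import Cfsg.Agent.ChevStructure.FieldMap
import Cfsg.Agent.LieClassical.FieldTransfer
import Cfsg.Agent.H638.G2Iso
import Cfsg.Agent.H517.LieTwo
import Cfsg.Agent.H517.LieOdd
import Cfsg.Agent.H517.SporRest
import Cfsg.Agent.H517.SporCox
import Cfsg.Agent.H517.SuzCox
import Cfsg.Agent.H517.Conway
import Cfsg.Agent.H517.Alt
import Cfsg.Agent.H517.M23
import Cfsg.Agent.H395.SixMain

/-!
# The known simple groups with all involution centralizers solvable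

The same as `H517.Main98.main`, with the Tits group itself and without the alternative "Tits order" for sporadic groups.
-/

set_option autoImplicit false

namespace Cfsg.Agent.H395.Six

open Subgroup Cfsg

universe u

variable {S : Type u} [Group S]

theorem known_two (h : Cfsg.Agent.H517.LieTwo.ListTwo S) : List98 S := by
  rcases h with h | ⟨F, i1, i2, -, h⟩ | h | h | h | h
  · exact Or.inr (Or.inr (Or.inl ⟨8, by norm_num, le_rfl, h⟩))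
  · exact Or.inr (Or.inr (Or.inr (Or.inl ⟨F, i1, i2, h⟩)))
  · exact Or.inr (Or.inr (Or.inr (Or.inr (Or.inl h))))
  · exact Or.inr (Or.inr (Or.inr (Or.inr (Or.inr (Or.inl h)))))
  · exact Or.inr (Or.inr (Or.inr (Or.inr (Or.inr (Or.inr (Or.inr (Or.inr (Or.inr (Or.inl h)))))))))
  · exact Or.inr (Or.inr (Or.inr (Or.inr (Or.inr (Or.inr (Or.inr (Or.inr (Or.inr (Or.inr (Or.inr (Or.inl h)))))))))))

theorem known_odd (h : Cfsg.Agent.H517.LieOdd.ListOdd S) : List98 S := by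
  rcases h with ⟨F, i1, i2, -, h⟩ | ⟨F, i1, i2, hF, h⟩ | h
  · exact Or.inr (Or.inr (Or.inr (Or.inl ⟨F, i1, i2, h⟩)))
  · have e : F ≃+* ZMod 3 := FiniteField.ringEquivOfCardEq (K := F) (K' := ZMod 3) (by rw [hF, ZMod.card])
    rcases h with h | ⟨⟨f⟩⟩ | ⟨⟨f⟩⟩
    · exact Or.inr (Or.inr (Or.inr (Or.inr (Or.inr (Or.inr (Or.inl ⟨F, i1, i2, hF, h⟩))))))
    · exact Or.inr (Or.inr (Or.inr (Or.inr (Or.inr (Or.inr (Or.inr (Or.inl
        ⟨f.trans (Cfsg.Agent.LieClassical.FieldTransfer.pspCongr 2 e)⟩)))))))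
    · obtain ⟨g⟩ := Cfsg.Agent.H638.G2Iso.equiv (F := ZMod 3)
      exact Or.inr (Or.inr (Or.inr (Or.inr (Or.inr (Or.inr (Or.inr (Or.inr (Or.inr (Or.inr (Or.inl
        ⟨(f.trans (Cfsg.Agent.ChevStructure.FieldMap.groupEquivOfRingEquiv Lie.chevG2 e)).trans g.symm⟩))))))))))
  · exact Or.inr (Or.inr (Or.inr (Or.inr (Or.inr (Or.inr (Or.inr (Or.inr (Or.inl h))))))))

theorem known_alt {n : ℕ} (hn : 5 ≤ n) (e : S ≃* alternatingGroup (Fin n)) : Cfsg.Agent.H517.NSC S ∨ List98 S := by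
  rcases Nat.lt_or_ge n 9 with h | h
  · exact Or.inr (Or.inr (Or.inr (Or.inl ⟨n, hn, by omega, ⟨e⟩⟩)))
  · exact Or.inl ((Cfsg.Agent.H517.Alt.nsc h).of_equiv e.symm)

theorem noncomm {G : Type*} [Group G] (hna : ¬ IsMulCommutative S) (e : S ≃* G) : ¬ ∀ x y : G, x * y = y * x := by
  intro h
  apply hna
  refine ⟨⟨fun a b => ?_⟩⟩
  apply e.injective
  rw [map_mul, map_mul]
  exact h _ _

theorem known_spor [Finite S] (hna : ¬ IsMulCommutative S) (h : IsSporadicGroup S) : Cfsg.Agent.H517.NSC S ∨ List98 S := by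
  have mcl : Cfsg.Agent.H517.NSC ↥Spor.McL := Cfsg.Agent.H517.LieOdd.nsc_of_rankOne Cfsg.Agent.AschComp.AllRows.spor.mcl
  rcases h with h | ⟨⟨e⟩⟩ | h | ⟨⟨e⟩⟩ | ⟨⟨e⟩⟩ | ⟨⟨e⟩⟩ | h | h | ⟨⟨e⟩⟩ | ⟨⟨e⟩⟩ | ⟨⟨e⟩⟩ | ⟨⟨e⟩⟩ | ⟨⟨e⟩⟩ | ⟨⟨e⟩⟩ |
    ⟨⟨e⟩⟩ | ⟨⟨e⟩⟩ | h | ⟨⟨e⟩⟩ | ⟨⟨e⟩⟩ | ⟨⟨e⟩⟩ | ⟨⟨e⟩⟩ | ⟨⟨e⟩⟩ | ⟨⟨e⟩⟩ | ⟨⟨e⟩⟩ | ⟨⟨e⟩⟩ | ⟨⟨e⟩⟩
  · exact Or.inr (Or.inl h)
  · exact Or.inl ((Cfsg.Agent.H517.LieOdd.nsc_of_rankOne Cfsg.Agent.AschComp.AllRows.spor.m12).of_equiv e.symm)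
  · exact Or.inr (Or.inr (Or.inl h))
  · exact Or.inl (Cfsg.Agent.H517.M23.m23.of_equiv e.symm)
  · exact Or.inl (Cfsg.Agent.H517.M23.m24.of_equiv e.symm)
  · exact Or.inl ((Cfsg.Agent.H517.LieOdd.nsc_of_rankOne Cfsg.Agent.AschComp.AllRows.spor.j1).of_equiv e.symm)
  · exact Or.inl (Cfsg.Agent.H517.SporRest.j2 h)
  · exact Or.inl (Cfsg.Agent.H517.SporRest.j3 h)
  · exact Or.inl (Cfsg.Agent.H517.SporRest.j4.of_equiv e.symm)
  · exact Or.inl ((Cfsg.Agent.H517.Conway.co1 mcl).of_equiv e.symm)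
  · exact Or.inl ((Cfsg.Agent.H517.Conway.co2 mcl).of_equiv e.symm)
  · exact Or.inl ((Cfsg.Agent.H517.LieOdd.nsc_of_rankOne Cfsg.Agent.AschComp.AllRows.spor.co3).of_equiv e.symm)
  · exact Or.inl (mcl.of_equiv e.symm)
  · exact Or.inl ((Cfsg.Agent.H517.LieOdd.nsc_of_rankOne Cfsg.Agent.AschComp.AllRows.spor.hs).of_equiv e.symm)
  · exact Or.inl ((Cfsg.Agent.H517.SuzCox.nsc (noncomm hna e)).of_equiv e.symm)
  · exact Or.inl (Cfsg.Agent.H517.SporRest.he.of_equiv e.symm)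
  · exact Or.inl (Cfsg.Agent.H517.SporRest.ru h)
  · exact Or.inl ((Cfsg.Agent.H517.LieOdd.nsc_of_rankOne Cfsg.Agent.AschComp.AllRows.spor.on).of_equiv e.symm)
  · exact Or.inl ((Cfsg.Agent.H517.LieOdd.nsc_of_rankOne Cfsg.Agent.AschComp.AllRows.spor.ly).of_equiv e.symm)
  · exact Or.inl ((Cfsg.Agent.H517.SporCox.fi22 (noncomm hna e)).of_equiv e.symm)
  · exact Or.inl ((Cfsg.Agent.H517.SporCox.fi23 (noncomm hna e)).of_equiv e.symm)
  · exact Or.inl ((Cfsg.Agent.H517.SporCox.fi24 (noncomm hna e)).of_equiv e.symm)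
  · exact Or.inl ((Cfsg.Agent.H517.LieOdd.nsc_of_rankOne Cfsg.Agent.AschComp.AllRows.spor.hn).of_equiv e.symm)
  · exact Or.inl (Cfsg.Agent.H517.SporRest.th.of_equiv e.symm)
  · exact Or.inl ((Cfsg.Agent.H517.SporCox.baby (noncomm hna e)).of_equiv e.symm)
  · exact Or.inl ((Cfsg.Agent.H517.SporCox.monster (noncomm hna e)).of_equiv e.symm)

/-- **The known simple groups with all involution centralizers solvable.** -/
theorem known [Finite S] (hna : ¬ IsMulCommutative S) (hk : IsKnownSimple' S) : Cfsg.Agent.H517.NSC S ∨ List98 S := by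
  rcases Cfsg.Agent.OddHalf.Known.classify hna hk with ⟨n, hn, ⟨e⟩⟩ | h | (h | h) | h
  · exact known_alt hn e
  · rcases Cfsg.Agent.H517.LieOdd.of_lie h with h | h
    · exact Or.inl h
    · exact Or.inr (known_odd h)
  · rcases Cfsg.Agent.H517.LieTwo.of_lie h with h | h
    · exact Or.inl h
    · exact Or.inr (known_two h)
  · exact Or.inr (Or.inr (Or.inr (Or.inr (Or.inr (Or.inr (Or.inr (Or.inr (Or.inr (Or.inr (Or.inr (Or.inr (Or.inr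
      h))))))))))))
  · exact known_spor hna h

end Cfsg.Agent.H395.Six
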