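import Cfsg.Agent.H395.SixSolv
import Cfsg.Agent.H762.CHyp

/-!
# The Tits group
-/

set_option autoImplicit false

namespace Cfsg.Agent.H395.Six.Tits

open Subgroup Cfsg

universe u

/-- a nontrivial normal subgroup of even order meets the center of a Sylow 2-subgroup -/
theorem exists_central {X : Type u} [Group X] [Finite X] (N : Subgroup X) [hN : N.Normal] {i : X} (hi : i ∈ N)
    (hii : i * i = 1) (hi1 : i ≠ 1) : ∃ (U : Sylow 2 X) (z : X), z ∈ N ∧ orderOf z = 2 ∧ z ∈ (U : Subgroup X) ∧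
      ∀ u ∈ (U : Subgroup X), u * z = z * u := by
  have h2 : Fact (Nat.Prime 2) := ⟨Nat.prime_two⟩
  have hp : IsPGroup 2 (zpowers i) := IsPGroup.of_card (n := 1) (by
    rw [Nat.card_zpowers, orderOf_eq_prime (by rw [pow_two, hii]) hi1, pow_one])
  obtain ⟨U, hU⟩ := hp.exists_le_sylow
  let K : Subgroup X := N ⊓ U
  have hK : ∀ u ∈ (U : Subgroup X), ∀ k ∈ K, u * k * u⁻¹ ∈ K := fun u hu k hk =>
    mem_inf.2 ⟨hN.conj_mem k hk.1 u, mul_mem (mul_mem hu hk.2) (inv_mem hu)⟩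
  let _ : MulAction (U : Subgroup X) K :=
    { smul := fun u k => ⟨u * k * (u : X)⁻¹, hK u u.2 k k.2⟩
      one_smul := fun k => Subtype.ext (show (1 : X) * k * 1⁻¹ = k by group)
      mul_smul := fun a b k => Subtype.ext (show ((a : X) * b) * k * ((a : X) * b)⁻¹ = a * (b * k * (b : X)⁻¹) * (a : X)⁻¹ by group) }
  have hsm : ∀ (u : (U : Subgroup X)) (k : K), ((u • k : K) : X) = u * k * (u : X)⁻¹ := fun _ _ => rfl
  have hdvd : 2 ∣ Nat.card K := by
    have h3 : Nat.card (zpowers i) ∣ Nat.card K := card_dvd_of_le (by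
      rw [zpowers_le]
      exact mem_inf.2 ⟨hi, hU (mem_zpowers i)⟩)
    rwa [Nat.card_zpowers, orderOf_eq_prime (by rw [pow_two, hii]) hi1] at h3
  have hfix : (1 : K) ∈ MulAction.fixedPoints (U : Subgroup X) K := by
    intro u
    apply Subtype.ext
    rw [hsm]
    simp
  obtain ⟨k, hk, hk1⟩ := U.isPGroup'.exists_fixed_point_of_prime_dvd_card_of_fixed_point K hdvd hfix
  have hkc : ∀ u ∈ (U : Subgroup X), u * (k : X) = k * u := fun u hu => by
    have h3 := congrArg Subtype.val (hk ⟨u, hu⟩)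
    rw [hsm] at h3
    exact mul_inv_eq_iff_eq_mul.1 h3
  have hk1' : (k : X) ≠ 1 := fun h => hk1 (Subtype.ext h.symm)
  obtain ⟨n, hn⟩ := SixExt.Ext.exists_invol_pow U.isPGroup' k.2.2 hk1'
  refine ⟨U, (k : X) ^ n, pow_mem k.2.1 n, ?_, pow_mem k.2.2 n, ?_⟩
  · exact orderOf_eq_prime (by rw [pow_two]; exact hn.1) hn.2
  · intro u hu
    exact (show Commute u (k : X) from hkc u hu).pow_right n

theorem core {X : Type u} [Group X] [Finite X] (N : Subgroup X) [N.Normal] (S : SHyp N)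
    (key : ∀ (U : Sylow 2 X) (z : X), orderOf z = 2 → z ∈ (U : Subgroup X) →
      (∀ u ∈ (U : Subgroup X), u * z = z * u) → ¬ 3 ∣ Nat.card (centralizer ({z} : Set X))) : False := by
  have h2 : Fact (Nat.Prime 2) := ⟨Nat.prime_two⟩
  obtain ⟨z, x, H⟩ := S.ex
  obtain ⟨U, z1, hz1N, ho, hzU, hzc⟩ := exists_central N (i := (z : X))
    z.2 (congrArg Subtype.val H.zz) (fun h => H.z1 (Subtype.ext h))
  have hzz : z1 * z1 = 1 := by rw [← pow_two, ← ho, pow_orderOf_eq_one]
  have hz1 : z1 ≠ 1 := fun h => by rw [h, orderOf_one] at ho; omega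
  obtain ⟨y, H'⟩ := S.exists_of_invol (i := (⟨z1, hz1N⟩ : N)) (Subtype.ext hzz)
    (fun h => hz1 (congrArg Subtype.val h))
  apply key U z1 ho hzU hzc
  have hyc : (y : X) ∈ centralizer ({z1} : Set X) :=
    mem_centralizer_singleton_iff.2 (congrArg Subtype.val H'.xz)
  have h3 : Fact (Nat.Prime 3) := ⟨Nat.prime_three⟩
  have ho3 : orderOf (⟨y, hyc⟩ : centralizer ({z1} : Set X)) = 3 := by
    have hy3 : (y : X) ^ 3 = 1 := by rw [← Subgroup.coe_pow, H'.x_three, Subgroup.coe_one]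
    apply orderOf_eq_prime
    · exact Subtype.ext hy3
    · intro h
      have h5 : (y : X) = 1 := congrArg Subtype.val h
      exact H'.x1 (Subtype.ext h5)
  have h4 := orderOf_dvd_natCard (⟨y, hyc⟩ : centralizer ({z1} : Set X))
  rw [ho3] at h4
  exact h4

theorem aux (K : Type) [Field K] [Fintype K] (hK : Fintype.card K = 2 ^ (2 * 0 + 1))
    (S : SHyp ↥(commutator ↥(Lie.twistedF4 K (2 ^ 0)))) : False := by
  have hfin : Finite ↥(Lie.twistedF4 K (2 ^ 0)) := inferInstance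
  refine core (X := ↥(Lie.twistedF4 K (2 ^ 0))) (commutator ↥(Lie.twistedF4 K (2 ^ 0))) S ?_
  intro U z h1 h2 h3
  exact (H762.chyp_twistedF4 (K := K) 0 hK U z h1 h2 h3 (MulEquiv.refl _)).three

theorem tits (S : SHyp Cfsg.Lie.TitsGroup) : False := by
  exact aux (ZMod 2) (by rw [ZMod.card]; norm_num) S

end Cfsg.Agent.H395.Six.Tits
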